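import Cfsg.Agent.H42.PcDefs
import Cfsg.Agent.S0029
import Cfsg.Agent.H3.Frattini

/-! Project PC: piece BB. -/

set_option autoImplicit false

namespace Cfsg.Agent.H48.PcBb

open Subgroup Cfsg.Agent.H42.Pc

universe u

theorem sq_le {G : Type*} [Group G] [Finite G] {T : Subgroup G} (hT : IsPGroup 2 T) :
    closure {x | ∃ w ∈ T, x = w * w} ≤ (frattini T).map T.subtype := by
  have : Fact (Nat.Prime 2) := ⟨Nat.prime_two⟩
  rw [closure_le]
  rintro x ⟨w, hw, rfl⟩
  rw [← pow_two]
  exact Cfsg.Agent.H3.pow_mem_map_frattini hT hw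

theorem bb : BbStmt.{u} := by
  intro G _ _ T hn g hT ho h
  have : Fact (Nat.Prime 2) := ⟨Nat.prime_two⟩
  have h1 : ∀ k ∈ T, g * k * g⁻¹ * k⁻¹ ∈ (frattini T).map T.subtype := by
    intro k hk
    have := inv_mem (sq_le hT (h k⁻¹ (inv_mem hk)))
    convert this using 1
    group
  have h2 : ∀ n : ℕ, ∀ k ∈ T, g ^ n * k * (g ^ n)⁻¹ * k⁻¹ ∈ (frattini T).map T.subtype := by
    intro n
    induction n with
    | zero => intro k _; simp
    | succ n ih =>
      intro k hk
      have := mul_mem (h1 _ (hn.conj_mem k hk (g ^ n))) (ih k hk)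
      convert this using 1
      rw [pow_succ']
      group
  refine Cfsg.Agent.S0029.result (zpowers g) T ?_ ?_ ?_ (mem_zpowers g)
  · rw [normalizer_eq_top]
    exact le_top
  · rw [Nat.card_zpowers]
    obtain ⟨m, hm⟩ := IsPGroup.iff_card.1 (hT.to_subgroup (frattini T))
    rw [hm]
    exact Nat.Coprime.pow_right _ (Nat.coprime_two_right.2 ho)
  · intro a ha k hk
    obtain ⟨n, rfl⟩ := (mem_powers_iff_mem_zpowers.2 ha)
    exact h2 n k hk

end Cfsg.Agent.H48.PcBb
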