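import Cfsg.Agent.H99.C1Defs

/-! Numbers as codes of `6 × 6` matrices over `ZMod 3`. -/

set_option autoImplicit false

namespace Cfsg.Agent.H48.C1N

open Cfsg.Agent.H99.C1 Matrix

/-- matrices -/
abbrev M6 : Type := Matrix (Fin 6) (Fin 6) K

/-- a digit -/
def dg (n i : ℕ) : ℕ := n / 4 ^ i % 4

/-- the number with the digits `f s % 3, f (s + 1) % 3, …` -/
noncomputable def enc (f : ℕ → ℕ) (k : ℕ) : ℕ → ℕ :=
  Nat.rec (fun _ => 0) (fun _ ih s => f s % 3 + 4 * ih (s + 1)) k

theorem dg_enc (f : ℕ → ℕ) (k : ℕ) : ∀ s i, i < k → dg (enc f k s) i = f (s + i) % 3 := by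
  induction k with
  | zero => exact fun _ _ h => absurd h (Nat.not_lt_zero _)
  | succ k ih =>
    intro s i h
    change (f s % 3 + 4 * enc f k (s + 1)) / 4 ^ i % 4 = _
    cases i with
    | zero => simp only [pow_zero, Nat.div_one, Nat.add_zero]; omega
    | succ i =>
      rw [pow_succ', ← Nat.div_div_eq_div_mul,
        show (f s % 3 + 4 * enc f k (s + 1)) / 4 = enc f k (s + 1) by omega]
      exact (ih (s + 1) i (by omega)).trans (by rw [Nat.add_right_comm, Nat.add_assoc])

theorem enc_congr {f g : ℕ → ℕ} (k : ℕ) : ∀ s, (∀ i < k, f (s + i) % 3 = g (s + i) % 3) →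
    enc f k s = enc g k s := by
  induction k with
  | zero => exact fun _ _ => rfl
  | succ k ih =>
    intro s h
    change f s % 3 + 4 * enc f k (s + 1) = g s % 3 + 4 * enc g k (s + 1)
    rw [show f s % 3 = g s % 3 from h 0 (by omega), ih (s + 1) fun i hi => by
      rw [Nat.add_right_comm, Nat.add_assoc]; exact h (i + 1) (by omega)]

/-- the matrix with a given code -/
def toM (n : ℕ) : M6 := fun i j => (dg n (6 * i + j) : K)

theorem toM_enc (f : ℕ → ℕ) (i j : Fin 6) : toM (enc f 36 0) i j = (f (6 * i + j) : K) := by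
  rw [toM, dg_enc f 36 0 _ (by omega), Nat.zero_add, ZMod.natCast_mod]

theorem enc_inj {f g : ℕ → ℕ} (h : toM (enc f 36 0) = toM (enc g 36 0)) : enc f 36 0 = enc g 36 0 :=
  enc_congr 36 0 fun i hi => by
    have := congrFun (congrFun h ⟨i / 6, by omega⟩) ⟨i % 6, by omega⟩
    rw [toM_enc, toM_enc, ZMod.natCast_eq_natCast_iff'] at this
    rwa [Nat.zero_add, ← Nat.div_add_mod i 6]

/-- the product -/
noncomputable def mulN (a b : ℕ) : ℕ := enc (fun s =>
  dg a (s / 6 * 6) * dg b (0 + s % 6) + dg a (s / 6 * 6 + 1) * dg b (6 + s % 6) +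
  dg a (s / 6 * 6 + 2) * dg b (12 + s % 6) + dg a (s / 6 * 6 + 3) * dg b (18 + s % 6) +
  dg a (s / 6 * 6 + 4) * dg b (24 + s % 6) + dg a (s / 6 * 6 + 5) * dg b (30 + s % 6)) 36 0

theorem toM_mul (a b : ℕ) : toM (mulN a b) = toM a * toM b := by
  ext i j
  rw [mulN, toM_enc, show (6 * (i : ℕ) + j) / 6 * 6 = 6 * i by omega,
    show (6 * (i : ℕ) + j) % 6 = j by omega, Matrix.mul_apply, Fin.sum_univ_six]
  simp only [Nat.cast_add, Nat.cast_mul]
  rfl

/-- the code of a matrix -/
noncomputable def cd (m : M6) : ℕ :=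
  enc (fun s => (m ⟨s / 6 % 6, Nat.mod_lt _ (by decide)⟩ ⟨s % 6, Nat.mod_lt _ (by decide)⟩).val) 36 0

theorem toM_cd (m : M6) : toM (cd m) = m := by
  ext i j
  rw [cd, toM_enc, ZMod.natCast_zmod_val]
  congr 2 <;> omega

theorem mulN_eq_cd {a b : ℕ} {m : M6} : mulN a b = cd m ↔ toM a * toM b = m :=
  ⟨fun h => by rw [← toM_mul, h, toM_cd], fun h => enc_inj (by
    rw [← toM_mul, ← toM_cd m] at h; exact h)⟩

/-- the code of the identity -/
def oneN : ℕ := 1180663682709764194305

theorem oneN_eq : oneN = cd 1 := by decide +kernel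

theorem mulN_eq_one {a b : ℕ} : mulN a b = oneN ↔ toM a * toM b = 1 := oneN_eq ▸ mulN_eq_cd

/-- all residues -/
def all3 (f : ℕ → Bool) : Bool := f 0 && (f 1 && f 2)

theorem all3_val {f : ℕ → Bool} (h : all3 f = true) (x : K) : f x.val = true := by
  simp only [all3, Bool.and_eq_true] at h
  have := x.val_lt
  rcases (by omega : x.val = 0 ∨ x.val = 1 ∨ x.val = 2) with e | e | e <;> rw [e]
  exacts [h.1, h.2.1, h.2.2]

/-- a matrix whose entries are linear forms in six parameters -/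
noncomputable def lin (P d0 d1 d2 d3 d4 d5 : ℕ) : ℕ := enc (fun s =>
  dg P (6 * s) * d0 + dg P (6 * s + 1) * d1 + dg P (6 * s + 2) * d2 + dg P (6 * s + 3) * d3 +
  dg P (6 * s + 4) * d4 + dg P (6 * s + 5) * d5) 36 0

theorem toM_lin (P : ℕ) (v : V) (i j : Fin 6) :
    toM (lin P (v 0).val (v 1).val (v 2).val (v 3).val (v 4).val (v 5).val) i j =
      ∑ k : Fin 6, (dg P (6 * (6 * i + j) + k) : K) * v k := by
  rw [lin, toM_enc, Fin.sum_univ_six]
  push_cast
  simp only [ZMod.natCast_zmod_val]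
  rfl

/-- all values of six parameters -/
def all6 (f : ℕ → ℕ → ℕ → ℕ → ℕ → ℕ → Bool) : Bool :=
  all3 fun a => all3 fun b => all3 fun c => all3 fun d => all3 fun e => all3 fun g => f a b c d e g

theorem all6_val {f : ℕ → ℕ → ℕ → ℕ → ℕ → ℕ → Bool} (h : all6 f = true) (v : V) :
    f (v 0).val (v 1).val (v 2).val (v 3).val (v 4).val (v 5).val = true :=
  all3_val (all3_val (all3_val (all3_val (all3_val (all3_val h _) _) _) _) _) _

/-- A matrix that intertwines two families is determined by one column. -/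
theorem recon {A Qi : M6} {W W' : Fin 6 → M6} (p : Fin 6) (h : ∀ l, A * W l = W' l * A)
    (hQ : (of fun k l => W l k p) * Qi = 1) (r s : Fin 6) :
    A r s = ∑ k, (∑ l, W' l r k * Qi l s) * A k p := by
  have h1 : A * (of fun k l => W l k p) = of fun r l => (W' l * A) r p := by
    ext r l
    rw [of_apply, ← h l]; rfl
  conv_lhs => rw [← Matrix.mul_one A, ← hQ, ← Matrix.mul_assoc, h1]
  simp only [Matrix.mul_apply, of_apply, Finset.sum_mul]
  rw [Finset.sum_comm]
  exact Finset.sum_congr rfl fun _ _ => Finset.sum_congr rfl fun _ _ => mul_right_comm ..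

/-- A matrix that intertwines two families is determined by one row. -/
theorem recon' {A Qi : M6} {W W' : Fin 6 → M6} (p : Fin 6) (h : ∀ l, A * W l = W' l * A)
    (hQ : Qi * (of fun l k => W' l p k) = 1) (r s : Fin 6) :
    A r s = ∑ k, (∑ l, Qi r l * W l k s) * A p k := by
  have h1 : (of fun l k => W' l p k) * A = of fun l s => (A * W l) p s := by
    ext l s
    rw [of_apply, h l]; rfl
  conv_lhs => rw [← Matrix.one_mul A, ← hQ, Matrix.mul_assoc, h1]
  simp only [Matrix.mul_apply, of_apply, Finset.sum_mul, Finset.mul_sum]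
  rw [Finset.sum_comm]
  exact Finset.sum_congr rfl fun _ _ => Finset.sum_congr rfl fun _ _ => by ring

end Cfsg.Agent.H48.C1N
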