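import Cfsg.Agent.H48.C1W

/-! Stabilizers of the canonical subspaces, and forbidden elements. -/

set_option autoImplicit false
set_option maxRecDepth 100000

namespace Cfsg.Agent.H48.C1N

open Cfsg.Agent.H99.C1 Matrix Subgroup

theorem stb_of {N : Subgroup G} {m : GL6} (h : ∀ v, jv v ∈ N → jv (m.1 *ᵥ v) ∈ N) : m ∈ Stb N := by
  have hp : ∀ n : ℕ, ∀ v, jv v ∈ N → jv ((m ^ n).1 *ᵥ v) ∈ N := fun n => by
    induction n with
    | zero => exact fun v hv => by simpa using hv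
    | succ n ih => exact fun v hv => by rw [pow_succ', Units.val_mul, ← mulVec_mulVec]; exact h _ (ih v hv)
  refine fun v => ⟨fun hv => ?_, h v⟩
  have := hp (orderOf m - 1) _ hv
  rwa [mulVec_mulVec, ← Units.val_mul, ← pow_succ, Nat.sub_add_cancel (orderOf_pos m),
    pow_orderOf_eq_one, Units.val_one, one_mulVec] at this

theorem stb_of' {N : Subgroup G} {m : GL6} (h : ∀ v, jv (m.1 *ᵥ v) ∈ N → jv v ∈ N) : m ∈ Stb N :=
  inv_mem_iff.1 (stb_of fun v hv => h _ (by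
    rwa [mulVec_mulVec, ← Units.val_mul, mul_inv_cancel, Units.val_one, one_mulVec]))

theorem fix_of {N : Subgroup G} {m : GL6} (hN : Nr N m) {v : V}
    (h : ∀ g ∈ N, (ug g).1 *ᵥ (m.1 *ᵥ v) = m.1 *ᵥ v) {g : G} (hg : g ∈ N) : (ug g).1 *ᵥ v = v := by
  obtain ⟨g', h1, e⟩ := hN g hg
  have := congrArg (m⁻¹.1 *ᵥ ·) (h g' h1)
  simp only [← e, mulVec_mulVec, ← Units.val_mul, mul_assoc, inv_mul_cancel, inv_mul_cancel_left,
    mul_one, Units.val_one, one_mulVec] at this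
  exact this

theorem fixZ : ∀ v : V, uM 1 0 0 *ᵥ v = v → uM 0 0 1 *ᵥ v = v →
    v 1 = 0 ∧ v 2 = 0 ∧ v 3 = 0 ∧ v 4 = 0 ∧ v 5 = 0 := by decide +kernel

theorem fixD : ∀ v : V, uM 0 1 0 *ᵥ v = v → uM 0 0 1 *ᵥ v = v → v 2 = 0 ∧ v 4 = 0 ∧ v 5 = 0 := by
  decide +kernel

theorem fixT : ∀ v : V, v ᵥ* uM 0 1 0 = v → v ᵥ* uM 0 0 1 = v →
    v 0 = 0 ∧ v 1 = 0 ∧ v 2 = 0 ∧ v 3 = 0 ∧ v 4 = 0 := by decide +kernel

theorem st : StStmt := by
  refine ⟨fun g e => ⟨⟨stb_of fun v hv => ?_, stb_of fun v hv => ?_⟩, stb_of fun v hv => ?_⟩,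
    fun m hN => stb_of' fun v hv => ?_, fun m hN => ⟨stb_of' fun v hv => ?_, stb_of fun v hv => ?_⟩⟩
  iterate 3
    rw [Units.val_mul, ← mulVec_mulVec]
    simp only [mem_Z, mem_Dz, mem_J5, jv] at hv ⊢
    simp [ug_apply, um, uM, tm_val, tM, mulVec, dotProduct, Fin.sum_univ_six, hv]
  · have f : ∀ g ∈ E2, (ug g).1 *ᵥ (m.1 *ᵥ v) = m.1 *ᵥ v := fun g hg => jv_injective (by
      rw [jv_ug, mul_inv_eq_iff_eq_mul]
      generalize jv (m.1 *ᵥ v) = z at hv
      rw [mem_Z] at hv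
      ext <;> simp [hv, add_comm])
    exact ⟨rfl, rfl, rfl, fixZ v (fix_of hN f (g := xa 1) rfl) (fix_of hN f (g := xc 1) rfl)⟩
  · have f : ∀ g ∈ E1, (ug g).1 *ᵥ (m.1 *ᵥ v) = m.1 *ᵥ v := fun g hg => jv_injective (by
      rw [jv_ug, mul_inv_eq_iff_eq_mul]
      generalize jv (m.1 *ᵥ v) = z at hv
      rw [mem_Dz] at hv
      rw [mem_E1] at hg
      ext <;> simp [hv, hg, add_comm])
    exact ⟨rfl, rfl, rfl, fixD v (fix_of hN f (g := xb 1) rfl) (fix_of hN f (g := xc 1) rfl)⟩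
  · have f : ∀ g ∈ E1, m.1 5 ᵥ* (ug g).1 = m.1 5 := fun g hg => by
      obtain ⟨g', -, e⟩ := hN g hg
      ext j
      have := congrArg (fun x : GL6 => x.1 5 j) (mul_inv_eq_iff_eq_mul.1 e)
      simpa [Matrix.mul_apply, Fin.sum_univ_six, ug_apply, um, uM, vecMul, dotProduct] using this
    obtain ⟨a0, a1, a2, a3, a4⟩ := fixT _ (f (xb 1) rfl) (f (xc 1) rfl)
    have h5 : v 5 = 0 := hv.2
    refine ⟨jv_mem _, ?_⟩
    change (m.1 *ᵥ v) 5 = 0
    simp [mulVec, dotProduct, Fin.sum_univ_six, *]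

theorem bad : BadStmt := fun X hX m hm => by
  have key : m ^ 27 = 1 → ∃ γ : GL6, ∃ g, γ * m * γ⁻¹ = ug g := fun h => by
    obtain ⟨γ, -, hγ⟩ := hX.syl (zpowers m) (zpowers_le.2 hm) fun ⟨x, i, hi⟩ => ⟨3, Subtype.ext (by
      change x ^ 27 = 1
      rw [← hi, ← zpow_natCast, ← _root_.zpow_mul, mul_comm, _root_.zpow_mul, zpow_natCast, h,
        _root_.one_zpow])⟩
    exact ⟨γ, hγ m (mem_zpowers m)⟩
  refine ⟨fun h => ?_, fun h => ?_⟩
  · obtain ⟨γ, g, e⟩ := key h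
    have : ug g ^ 3 = 1 := by
      rw [ug_apply, pow_three, um_mul, um_mul]
      exact (um_eq (by linear_combination g.a * three) (by linear_combination g.b * three)
        (by linear_combination (g.c + g.a * g.b) * three)).trans (Units.ext uM_zero)
    rw [← e, conj_pow] at this
    exact conj_eq_one_iff.1 this
  · have h3 : m ^ 3 = 1 := Units.ext (by
      have h1 : m.1 * m.1 = m.1 + m.1 - 1 := by
        rw [← sub_eq_zero, ← h]; noncomm_ring
      have h2 : m.1 + m.1 + m.1 = 0 := by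
        ext i j; simp only [Matrix.add_apply, Matrix.zero_apply]; linear_combination m.1 i j * three
      have h4 : (1 : M6) + 1 + 1 = 0 := by decide
      rw [pow_three, Units.val_mul, Units.val_mul, h1, mul_sub, mul_add, h1, mul_one, Units.val_one,
        ← sub_eq_zero, ← h2, ← sub_zero (m.1 + m.1 + m.1), ← h4]
      abel)
    obtain ⟨γ, g, e⟩ := key (by rw [show 27 = 3 * 9 from rfl, pow_mul, h3, one_pow])
    have e1 : (ug g).1 - 1 = γ.1 * (m.1 - 1) * γ⁻¹.1 := by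
      rw [← e, mul_sub, sub_mul, mul_one, Units.mul_inv]; rfl
    have e2 : ((ug g).1 - 1) * ((ug g).1 - 1) = 0 := by
      rw [e1, mul_assoc, mul_assoc γ.1 (m.1 - 1) γ⁻¹.1, Units.inv_mul_cancel_left, mul_assoc,
        ← mul_assoc (m.1 - 1), h, zero_mul, mul_zero]
    have e3 : ∀ a b c, (uM a b c - 1) * (uM a b c - 1) = 0 → uM a b c = 1 := by decide +kernel
    exact conj_eq_one_iff.1 (e.trans (Units.ext (e3 _ _ _ e2)))

theorem xb : XBStmt := fun X hX => by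
  refine ⟨fun k l hk hl => ?_, fun k l hk hl => ?_, fun k h1 h2 => ?_⟩
  · have := congrArg Units.val ((bad X hX _ (mul_mem hk (inv_mem hl))).2
      (by clear hk hl; revert k l; decide +kernel))
    clear hk hl; revert k l; decide +kernel
  · have := congrArg Units.val ((bad X hX _ (mul_mem hk (inv_mem hl))).2
      (by clear hk hl; revert k l; decide +kernel))
    clear hk hl; revert k l; decide +kernel
  · obtain ⟨a, b⟩ := wd.bad k
    have := (bad X hX _ (pow_mem (mul_mem (mul_mem (mul_mem (um_mem hX 1 0 0) (um_mem hX 0 1 0)) h1)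
      h2) 2)).1 (by rw [← pow_mul, show 2 * 27 = 18 * 3 from rfl, pow_mul, a, one_pow])
    rw [← pow_mul] at this
    exact b this

end Cfsg.Agent.H48.C1N
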