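import Cfsg.Agent.H48.C1X

/-! Words in the generators, and the normalizer of the regular element. -/

set_option autoImplicit false
set_option maxRecDepth 100000

namespace Cfsg.Agent.H48.C1N

open Cfsg.Agent.H99.C1 Matrix

/-- the code of a product -/
noncomputable def prodN (l : List GL6) : ℕ := l.foldr (fun g n => mulN (cd g.1) n) oneN

theorem toM_prodN (l : List GL6) : toM (prodN l) = l.prod.1 := by
  induction l with
  | nil => exact (congrArg toM oneN_eq).trans (toM_cd 1)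
  | cons g l ih => rw [List.prod_cons, Units.val_mul, ← ih, ← toM_cd g.1, ← toM_mul]; rfl

theorem prod_eq {l : List GL6} {g : GL6} (h : prodN l = cd g.1) : l.prod = g :=
  Units.ext (by rw [← toM_prodN, h, toM_cd])

theorem mem_of_word {Y : Subgroup GL6} {g : GL6} (l : List GL6) (h : prodN l = cd g.1)
    (hl : ∀ x ∈ l, x ∈ Y) : g ∈ Y := prod_eq h ▸ list_prod_mem hl

theorem wd : Wd := by
  refine ⟨fun Y k hu ht hm => ?_, fun Y k hu hq hp => ?_, fun k => ?_, fun k => ?_⟩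
  · have ha : um 1 0 0 ∈ Y := hu (xa 1)
    have hb : um 0 1 0 ∈ Y := hu (xb 1)
    exact ⟨mem_of_word [mm k, um 0 1 0, mm k, mm k, tm τ3, mm k, um 0 1 0, mm k, mm k]
      (by clear hm; revert k; decide +kernel) (by simp [*]), mem_of_word [mm k, um 1 0 0, um 0 1 0,
        tm τ3, mm k, um 1 0 0, mm k, um 0 1 0, tm τ3, mm k, um 0 1 0]
      (by clear hm; revert k; decide +kernel) (by simp [*])⟩
  · have ha : um 1 0 0 ∈ Y := hu (xa 1)
    have hb : um 0 1 0 ∈ Y := hu (xb 1)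
    exact ⟨mem_of_word [w1m (k + 1), um 0 1 0, w2m k, um 0 1 0, w1m (k + 1), w2m k, w1m (k + 1),
        w1m (k + 1), w1m (k + 1), w2m k] (by clear hq hp; revert k; decide +kernel) (by simp [*]),
      mem_of_word [um 1 0 0, w1m (k + 1), w2m k, w1m (k + 1), w2m k, um 0 1 0, w1m (k + 1), w2m k,
        w1m (k + 1), w2m k, w1m (k + 1), w2m k, um 0 1 0, w2m k, w1m (k + 1), w2m k,
        w1m (k + 1)] (by clear hq hp; revert k; decide +kernel) (by simp [*])⟩
  · have := prod_eq (l := [um 0 0 1, (mm k)⁻¹, um 0 0 1, mm k, (um 0 0 1)⁻¹]) (g := (mm k)⁻¹)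
      (by revert k; decide +kernel)
    simpa [mul_assoc] using this
  · have e : toM (p6 (prodN [um 1 0 0, um 0 1 0, w2m k, w1m (k + 2)])) =
        ((um 1 0 0 * um 0 1 0 * w2m k * w1m (k + 2)) ^ 6).1 := by
      rw [toM_p6, toM_prodN]; simp [mul_assoc]
    have h : ∀ k : K, (fun n => mulN n (mulN n n) = oneN ∧ n ≠ oneN)
        (p6 (prodN [um 1 0 0, um 0 1 0, w2m k, w1m (k + 2)])) := by decide +kernel
    obtain ⟨h1, h2⟩ := h k
    rw [mulN_eq_one, toM_mul, e] at h1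
    exact ⟨Units.ext (by rw [show 18 = 6 * 3 from rfl, pow_mul, pow_three]; exact h1), fun h3 =>
      h2 (mulN_eq_one.2 (by rw [← toM_mul]; exact e.trans (congrArg Units.val h3)))⟩

theorem x4 (h40 : X40Stmt) (hF : FLStmt) : X4Stmt := fun X hX ht m hm hN => by
  refine or_iff_not_imp_left.2 fun hb => ?_
  obtain ⟨k, j, e⟩ := h40 X hX ht m hm hN hb
  have hn := mul_mem (um_mem hX 0 0 j) hm
  have hc := mul_mem (mul_mem hn (um_mem hX 0 0 1)) (inv_mem hn)
  have hk : mm k ∈ X := by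
    rcases e with e | e <;> rw [e] at hc
    exacts [hc, inv_mem_iff.1 hc]
  obtain ⟨p, q⟩ := wd.w X k hX.u ht hk
  refine ⟨k, p, q, fun Y hu hY p' q' => ?_⟩
  have hx := mul_mem (um_mem hX 0 0 1) (inv_mem hk)
  have hy : ∀ a b c, um a b c ∈ Y := fun a b c => hu ⟨a, b, c, 0, 0, 0, 0, 0, 0⟩
  have hx' := mul_mem (hy 0 0 1) (inv_mem (wd.m Y k hu p' q').1)
  have e2 := wd.n k
  generalize um 0 0 1 * (mm k)⁻¹ = x at hx hx' e2
  obtain ⟨γ, e3⟩ : ∃ γ, x⁻¹ * (um 0 0 j * m) * um 0 0 1 * (x⁻¹ * (um 0 0 j * m))⁻¹ = um 0 0 γ := by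
    rw [show ∀ n c : GL6, x⁻¹ * n * c * (x⁻¹ * n)⁻¹ = x⁻¹ * (n * c * n⁻¹) * x from fun n c => by group]
    rcases e with e | e <;> rw [e]
    · exact ⟨-1, by
        rw [← inv_inv (mm k), ← e2, show um 0 0 (-1) = (um 0 0 1)⁻¹ from Units.ext (by decide)]
        group⟩
    · exact ⟨1, by rw [← e2]; group⟩
  obtain ⟨g, s, e4, hs⟩ := hF X hX _ (mul_mem (inv_mem hx) hn) (nr_Jc e3)
  have := mul_mem (inv_mem (hy 0 0 j)) (mul_mem hx' (e4 ▸ mul_mem (hu g) (hY s hs)))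
  simpa using this

end Cfsg.Agent.H48.C1N
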