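import Cfsg.Agent.H48.C1N

/-! The normalizers of `V₂` and `V₁` in a group with Sylow subgroup `U`. -/

set_option autoImplicit false
set_option maxRecDepth 100000

namespace Cfsg.Agent.H48.C1N

open Cfsg.Agent.H99.C1 Matrix

theorem k3 {β : K} (h : β ≠ 0) (p : K) : p = 0 ∨ p = β ∨ p = β + β := by revert β p; decide

theorem k2 {β : K} (h : β ≠ 0) : β * β = 1 := by revert β; decide

theorem kpm {β δ ε : K} (h1 : β ≠ 0) (h2 : δ ≠ 0) (h3 : ε ≠ 0) : δ * β = ε ∨ δ * β = -ε := by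
  revert β δ ε; decide

section
variable {Γ : Type*} [Group Γ] {u : K → K → Γ} (hu : ∀ p q r s, u p q * u r s = u (p + r) (q + s))
include hu

theorem u_zero : u 0 0 = 1 := mul_eq_left.1 ((hu 0 0 0 0).trans (by simp))

theorem u_hom {A : Γ} {p q r s : K} (h : A * u p q * A⁻¹ = u r s) (k : K) :
    A * u (k * p) (k * q) * A⁻¹ = u (k * r) (k * s) := by
  rcases k3 one_ne_zero k with rfl | rfl | rfl
  · simp [u_zero hu]
  · simpa using h
  · simp only [add_mul, one_mul]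
    rw [← hu, ← hu, ← conj_mul, h]

theorem u_all {A : Γ} {e : K} (h1 : A * u 1 0 * A⁻¹ = u 1 0) (h2 : A * u 0 1 * A⁻¹ = u e 1)
    (p q : K) : A * u p q * A⁻¹ = u (p + q * e) q := by
  have a := u_hom hu h1 p
  have b := u_hom hu h2 q
  simp only [mul_one, mul_zero] at a b
  rw [show u p q = u p 0 * u 0 q by simp [hu], ← conj_mul, a, b, hu, zero_add]

theorem red (h0 : ∀ p, u p 0 = 1 → p = 0) {A : Γ} {β β' δ ε : K} (hβ : β ≠ 0) (hε : ε ≠ 0)
    (c1 : A * u β 0 * A⁻¹ = u β 0) (c2 : A * u β' δ * A⁻¹ = u β' δ * u β 0) :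
    ∃ B, (B = A ∨ B = A⁻¹) ∧ ∀ p q, B * u p q * B⁻¹ = u (p + q * ε) q := by
  have b2 := k2 hβ
  have c0 : A * u 1 0 * A⁻¹ = u 1 0 := by simpa [b2] using u_hom hu c1 β
  have c3 : A * u 0 δ * A⁻¹ = u β δ := by
    have a := u_hom hu c0 β'
    simp only [mul_one, mul_zero] at a
    rw [show u β' δ = u β' 0 * u 0 δ by simp [hu], ← conj_mul, a, mul_assoc (u β' 0),
      mul_right_inj, hu] at c2
    simpa using c2
  have hδ : δ ≠ 0 := fun e => hβ (h0 β (by rw [e, u_zero hu] at c3; simpa using c3.symm))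
  have d2 := k2 hδ
  have c4 := u_all hu c0 (e := δ * β) (by simpa [d2] using u_hom hu c3 δ)
  rcases kpm hβ hδ hε with e | e <;> rw [e] at c4
  · exact ⟨A, Or.inl rfl, c4⟩
  · refine ⟨A⁻¹, Or.inr rfl, fun p q => ?_⟩
    rw [show u p q = A * u (p + q * ε) q * A⁻¹ by rw [c4]; congr 1; ring]
    group

end

/-- exponents -/
def ex1 : Fin 6 → K := ![0, 1, 2, 0, 1, 0]

/-- exponents -/
def ex2 : Fin 6 → K := ![0, 0, 0, 1, 1, 2]

/-- the sixth power -/
noncomputable def p6 (x : ℕ) : ℕ := mulN (mulN x (mulN x x)) (mulN x (mulN x x))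

theorem toM_p6 (x : ℕ) : toM (p6 x) = toM x ^ 6 := by
  simp only [p6, toM_mul, pow_succ, pow_zero, Matrix.one_mul, Matrix.mul_assoc]

/-- the test for a candidate -/
noncomputable def tst (a : GL6) (u : K → K → GL6) (w : K → GL6) (A : ℕ) : Bool :=
  !(Nat.beq (mulN A (mulN A A)) oneN) ||
    (Nat.beq (mulN (p6 (mulN (cd a.1) A)) (mulN (p6 (mulN (cd a.1) A)) (p6 (mulN (cd a.1) A)))) oneN &&
      !(Nat.beq (p6 (mulN (cd a.1) A)) oneN) ||
    decide (∃ k i j, mulN (mulN (cd a.1) A) (cd (u i j * a).1) = cd (w k).1))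

theorem of_tst (hB : BadStmt) {X : Subgroup GL6} (hX : LX X) {a A : GL6} {u : K → K → GL6}
    {w : K → GL6} (ha : a ∈ X) (hu : ∀ i j, u i j ∈ X) (hA : A ∈ X) (h3 : A ^ 3 = 1) {n : ℕ}
    (hn : toM n = A.1) (h : tst a u w n = true) : ∃ k, w k ∈ X := by
  simp only [tst, Bool.or_eq_true, Bool.and_eq_true, Bool.not_eq_true', Nat.beq_eq,
    decide_eq_true_eq, ← Bool.not_eq_true] at h
  have e : toM (p6 (mulN (cd a.1) n)) = ((a * A) ^ 6).1 := by
    rw [toM_p6, toM_mul, toM_cd, hn]; rfl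
  rcases h with h | ⟨h1, h2⟩ | ⟨k, i, j, h⟩
  · exact absurd (mulN_eq_one.2 (by rw [toM_mul, hn, ← pow_three]; exact congrArg Units.val h3)) h
  · rw [mulN_eq_one, toM_mul, e] at h1
    have h4 : ((a * A) ^ 6) ^ 3 = 1 := Units.ext (by rw [pow_three]; exact h1)
    have := (hB X hX _ (pow_mem (mul_mem ha hA) 2)).1 (by
      rw [← pow_mul, show 2 * 27 = 6 * 3 * 3 from rfl, pow_mul, pow_mul, h4, one_pow])
    rw [← pow_mul] at this
    exact absurd (mulN_eq_one.2 (by rw [← toM_mul]; exact e.trans (congrArg Units.val this))) h2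
  · rw [mulN_eq_cd, toM_mul, toM_cd, toM_cd, hn] at h
    exact ⟨k, (Units.ext h : a * A * (u i j * a) = w k) ▸
      mul_mem (mul_mem ha hA) (mul_mem (hu i j) ha)⟩

/-- coefficients -/
def P1 : ℕ := 0x400000000000000000100400000800000000040200400100400400010000000400000000004010000120400800001000000020000400

/-- coefficients -/
def P2 : ℕ := 0x1001001000000000000001002000000000000000001000000000020018004001002000000020008000001000400100040010004001

theorem chk1 : all6 (fun a b c d e f => tst (um 1 0 0) (um 0) w1m (lin P1 a b c d e f)) = true := by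
  decide +kernel

theorem chk2 :
    all6 (fun a b c d e f => tst (um 0 1 0) (fun p => um p 0) w2m (lin P2 a b c d e f)) = true := by
  decide +kernel

theorem um_mem {X : Subgroup GL6} (hX : LX X) (a b c : K) : um a b c ∈ X :=
  hX.u ⟨a, b, c, 0, 0, 0, 0, 0, 0⟩

theorem um_inv (a b c : K) : (um a b c)⁻¹ = um (-a) (-b) (a * b - c) := Units.ext rfl

theorem um_eq {a b c a' b' c' : K} (h1 : a = a') (h2 : b = b') (h3 : c = c') :
    um a b c = um a' b' c' := by rw [h1, h2, h3]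

theorem hu1 (p q r s : K) : um 0 p q * um 0 r s = um 0 (p + r) (q + s) := by simp [um_mul]

theorem hu2 (p q r s : K) : um p 0 q * um r 0 s = um (p + r) 0 (q + s) := by simp [um_mul]

theorem nr_Jc {m : GL6} {γ : K} (h : m * um 0 0 1 * m⁻¹ = um 0 0 γ) : Nr Jc m := fun g hg => by
  refine ⟨xc (g.c * γ), ⟨rfl, rfl⟩, ?_⟩
  have := u_hom hu1 h g.c
  simp only [mul_zero, mul_one] at this
  rw [ug_apply, hg.1, hg.2]
  exact this

theorem conj3 {Γ : Type*} [Group Γ] {A B m a : Γ} (h : B = A ∨ B = A⁻¹) (e : A = m * a * m⁻¹)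
    (h3 : a ^ 3 = 1) : B ^ 3 = 1 := by
  rcases h with rfl | rfl <;> rw [e]
  · rw [conj_pow, h3]; group
  · rw [inv_pow, conj_pow, h3]; group

theorem x1 (hF : FLStmt) (hB : BadStmt) : X1Stmt := fun X hX m hm hN hb => by
  obtain ⟨⟨a1, β, γ, _, _, _, _, _, _⟩, rfl : a1 = 0, e1⟩ := hN (xc 1) rfl
  obtain ⟨⟨a2, β', γ', _, _, _, _, _, _⟩, rfl : a2 = 0, e2⟩ := hN (xb 1) rfl
  change m * um 0 0 1 * m⁻¹ = um 0 β γ at e1
  change m * um 0 1 0 * m⁻¹ = um 0 β' γ' at e2
  have hβ : β ≠ 0 := fun e => hb (hF X hX m hm (nr_Jc (e ▸ e1)))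
  have b2 := k2 hβ
  have cj : ∀ {x p q}, m * x * m⁻¹ = um 0 p q → um (-γ * β) 0 0 * m * x * (um (-γ * β) 0 0 * m)⁻¹ =
      um 0 p (q - γ * β * p) := fun {x p q} h => by
    rw [show ∀ g : GL6, g * m * x * (g * m)⁻¹ = g * (m * x * m⁻¹) * g⁻¹ from fun g => by group, h,
      um_inv, um_mul, um_mul]
    exact um_eq (by ring) (by ring) (by ring)
  have e3 := cj e1
  have e4 := cj e2
  rw [mul_assoc γ, b2, mul_one, sub_self] at e3
  have hm' := mul_mem (um_mem hX (-γ * β) 0 0) hm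
  generalize um (-γ * β) 0 0 * m = n at e3 e4 hm'
  obtain ⟨B, h1, h2⟩ := red hu1 (fun p h => congrArg (fun m : GL6 => m.1 4 5) h)
    (A := n * um 1 0 0 * n⁻¹) (β' := β') (δ := γ' - γ * β * β') (ε := 2) hβ (by decide) (by
      rw [← e3, conj_mul, conj_inv, conj_mul]; congr 2; exact Units.ext (by decide)) (by
      rw [← e4, ← e3, conj_mul, conj_inv, conj_mul, conj_mul]; congr 2; exact Units.ext (by decide))
  have hA := mul_mem (mul_mem hm' (um_mem hX 1 0 0)) (inv_mem hm')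
  refine of_tst hB hX (um_mem hX 1 0 0) (um_mem hX 0) (A := B) (by
    rcases h1 with rfl | rfl
    exacts [hA, inv_mem hA]) (conj3 h1 rfl (Units.ext (by decide))) ?_ (all6_val chk1 fun k => B.1 k 5)
  ext r s
  rw [toM_lin P1 fun k => B.1 k 5, recon (Qi := toM 20753715875493217414) (W := fun l => (um 0 (ex1 l) (ex2 l)).1)
    (W' := fun l => (um 0 (ex1 l + ex2 l * 2) (ex2 l)).1) 5
    (fun l => congrArg Units.val (mul_inv_eq_iff_eq_mul.1 (h2 _ _))) (by decide +kernel) r s]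
  refine Finset.sum_congr rfl fun k _ => congrArg (· * _) ?_
  revert r s k
  decide +kernel

theorem x2 (hF : FLStmt) (hB : BadStmt) : X2Stmt := fun X hX m hm hN hb => by
  obtain ⟨⟨β, a1, γ, _, _, _, _, _, _⟩, rfl : a1 = 0, e1⟩ := hN (xc 1) rfl
  obtain ⟨⟨β', a2, γ', _, _, _, _, _, _⟩, rfl : a2 = 0, e2⟩ := hN (xa 1) rfl
  change m * um 0 0 1 * m⁻¹ = um β 0 γ at e1
  change m * um 1 0 0 * m⁻¹ = um β' 0 γ' at e2
  have hβ : β ≠ 0 := fun e => hb (hF X hX m hm (nr_Jc (e ▸ e1)))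
  have b2 := k2 hβ
  have cj : ∀ {x p q}, m * x * m⁻¹ = um p 0 q → um 0 (γ * β) 0 * m * x * (um 0 (γ * β) 0 * m)⁻¹ =
      um p 0 (q - γ * β * p) := fun {x p q} h => by
    rw [show ∀ g : GL6, g * m * x * (g * m)⁻¹ = g * (m * x * m⁻¹) * g⁻¹ from fun g => by group, h,
      um_inv, um_mul, um_mul]
    exact um_eq (by ring) (by ring) (by ring)
  have e3 := cj e1
  have e4 := cj e2
  rw [mul_assoc γ, b2, mul_one, sub_self] at e3
  have hm' := mul_mem (um_mem hX 0 (γ * β) 0) hm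
  generalize um 0 (γ * β) 0 * m = n at e3 e4 hm'
  have e5 : n * (um 0 0 1)⁻¹ * n⁻¹ = um (-β) 0 0 := by
    rw [← conj_inv, e3, um_inv]; exact um_eq rfl (by ring) (by ring)
  obtain ⟨B, h1, h2⟩ := red (u := fun p => um p 0) hu2
    (fun p h => congrArg (fun m : GL6 => m.1 2 4) h)
    (A := n * um 0 1 0 * n⁻¹) (β' := β') (δ := γ' - γ * β * β') (ε := 1) (neg_ne_zero.2 hβ)
    (by decide) (by
      rw [← e5, conj_mul, conj_inv, conj_mul]; congr 2; exact Units.ext (by decide)) (by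
      rw [← e4, ← e5, conj_mul, conj_inv, conj_mul, conj_mul]; congr 2; exact Units.ext (by decide))
  have hA := mul_mem (mul_mem hm' (um_mem hX 0 1 0)) (inv_mem hm')
  refine of_tst hB hX (um_mem hX 0 1 0) (fun p => um_mem hX p 0) (A := B) (by
    rcases h1 with rfl | rfl
    exacts [hA, inv_mem hA]) (conj3 h1 rfl (Units.ext (by decide))) ?_ (all6_val chk2 fun k => B.1 0 k)
  ext r s
  rw [toM_lin, recon' (Qi := toM 2988541427849028059137) (W := fun l => (um (ex1 l) 0 (ex2 l)).1)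
    (W' := fun l => (um (ex1 l + ex2 l * 1) 0 (ex2 l)).1) 0
    (fun l => congrArg Units.val (mul_inv_eq_iff_eq_mul.1 (h2 _ _))) (by decide +kernel) r s]
  refine Finset.sum_congr rfl fun k _ => congrArg (· * _) ?_
  revert r s k
  decide +kernel

end Cfsg.Agent.H48.C1N
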