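import Cfsg.Agent.H56.SpDefs

/-! Project CY, chapter SP: piece UQ. -/

set_option autoImplicit false

namespace Cfsg.Agent.H48.SpUq

open Subgroup MulAction Cfsg.Agent.H11.Cy Cfsg.Agent.H56.Sp
open Cfsg.Agent.H45.Iv (Fx Sub Ms)

theorem uq : UqStmt := by
  intro G _ _ Ω _ _ p A h hy sz bw sr x y hxy t ht tt
  by_cases t1 : t = 1
  · exact Or.inl t1
  have lf := hy.lf x y hxy
  obtain ⟨z, hz⟩ := lf.ex
  by_cases tz : t = z
  · exact Or.inr (tz ▸ hz)
  exfalso
  have zK := lf.cen z hz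
  have tzK : t * z ∈ Kl A x y := mul_mem ht zK
  have tz1 : t * z ≠ 1 := by
    intro e
    apply tz
    calc t = t * (z * z) := by rw [hz.2.2, mul_one]
      _ = z := by rw [← mul_assoc, e, one_mul]
  have p2 := h.pp.two_le
  have n1 : 1 ≤ Nat.card Ω := by
    have : Nonempty Ω := ⟨x⟩
    exact Nat.card_pos
  have full : ∀ s : Set Ω, s.ncard = Nat.card Ω → s = Set.univ := fun s e =>
    Set.eq_of_subset_of_ncard_le (Set.subset_univ s) (by rw [Set.ncard_univ, e]) Set.finite_univ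
  have prop : ∀ k : G, k ≠ 1 → Fx Ω k ≠ Set.univ := fun k k1 e =>
    k1 (h.faith k fun w => (show w ∈ Fx Ω k from e ▸ Set.mem_univ w))
  have size : ∀ k ∈ Kl A x y, k ≠ 1 → (Fx Ω k).ncard = p + 1 ∨ (Fx Ω k).ncard = p ^ 3 + 1 := by
    intro k hk k1
    obtain ⟨s1, s2, -⟩ := hy.cz.sub x y hxy k hk
    exact sz _ s1 (prop k k1) ⟨x, s2 lf.mem.1, y, s2 lf.mem.2, hxy⟩
  have b := bw x y hxy z hz t ht tt t1 tz
  have p0 : 0 < p := by omega
  rcases size t ht t1 with e1 | e1 <;> rcases size _ tzK tz1 with e2 | e2 <;>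
    rw [e1, e2, Nat.add_sub_cancel] at b
  · have := Nat.eq_of_mul_eq_mul_left p0 b
    exact hy.ml x y hxy (full _ (by rw [lf.ln]; omega))
  · rw [Nat.add_sub_cancel] at b
    have := Nat.eq_of_mul_eq_mul_left p0 b
    exact prop _ tz1 (full _ (by rw [e2]; omega))
  · rw [Nat.add_sub_cancel, mul_comm (p ^ 3)] at b
    have := Nat.eq_of_mul_eq_mul_left p0 b
    exact prop _ t1 (full _ (by rw [e1]; omega))
  · have b' : p * (Nat.card Ω - 1) = p * p ^ 5 := by rw [b]; ring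
    have n5 := Nat.eq_of_mul_eq_mul_left p0 b'
    have ne : Fx Ω t ≠ Ln A x y := by
      intro e
      rw [e, lf.ln] at e1
      have : p < p ^ 3 := by
        calc p = p ^ 1 := (pow_one p).symm
          _ < p ^ 3 := Nat.pow_lt_pow_right (by omega) (by norm_num)
      omega
    have s := sr x y hxy t ht tt ne
    have q1 : 1 < p ^ 2 := Nat.one_lt_pow (by norm_num) (by omega)
    have d : Nat.card Ω - (Fx Ω t).ncard = p ^ 3 * (p ^ 2 - 1) := by
      rw [e1, Nat.mul_sub, mul_one, ← pow_add, show 3 + 2 = 5 from rfl]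
      omega
    rw [d] at s
    have co : ∀ j, Nat.Coprime (2 ^ j) (p ^ 3) := fun j =>
      Nat.Coprime.pow _ _ ((Nat.coprime_primes Nat.prime_two h.pp).2 hy.mc.p2.symm)
    have al : ∀ j, 2 ^ j ∣ p ^ 2 - 1 := by
      intro j
      induction j with
      | zero => simp
      | succ j ih => exact (co _).dvd_of_dvd_mul_left (s j ih)
    have l1 := Nat.le_of_dvd (by omega) (al (p ^ 2))
    have l2 : p ^ 2 < 2 ^ (p ^ 2) := Nat.lt_two_pow_self
    omega

end Cfsg.Agent.H48.SpUq
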